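import Cfsg.Agent.Lib.Helper5.FrobChar2
import Cfsg.Agent.Lib.Helper32.CyclicTI4
import Cfsg.Agent.Lib.Helper32.IndAbove
import Cfsg.Agent.Lib.Helper83.Basic
import Cfsg.Agent.Lib.Helper82.Constituent

/-!
# Characters of a Frobenius-type group with abelian kernel containing involutions
-/

set_option autoImplicit false
set_option linter.unusedSectionVars false
set_option linter.unusedVariables false

open Cfsg
open scoped ComplexConjugate

namespace Cfsg.Agent.Lib.Helper12.FA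

open Cfsg.Agent.Lib.Helper20

variable {L : Type*} [Group L] [Fintype L]

/-- abelian normal subgroup containing the centralisers of its non-identity elements, whose
involutions are all conjugate to `t` -/
structure LData (A : Subgroup L) (t : L) : Prop where
  normal : A.Normal
  comm : ∀ a ∈ A, ∀ b ∈ A, a * b = b * a
  cent : ∀ k ∈ A, k ≠ 1 → Subgroup.centralizer ({k} : Set L) ≤ A
  tA : t ∈ A
  t1 : t ≠ 1
  t2 : t * t = 1
  tr : ∀ s ∈ A, s ≠ 1 → s * s = 1 → ∃ g : L, g * t * g⁻¹ = s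

open Classical in
/-- elements of `A` of order at most two -/
noncomputable def Om (A : Subgroup L) : Finset L :=
  Finset.univ.filter (fun s => s ∈ A ∧ s * s = 1)

open Classical in
/-- involutions of `A` -/
noncomputable def Inv (A : Subgroup L) : Finset L := (Om A).erase 1

theorem mem_Om {A : Subgroup L} {s : L} : s ∈ Om A ↔ s ∈ A ∧ s * s = 1 := by
  simp [Om]

theorem mem_Inv {A : Subgroup L} {s : L} : s ∈ Inv A ↔ s ≠ 1 ∧ s ∈ A ∧ s * s = 1 := by
  simp [Inv, mem_Om]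

theorem one_mem_Om (A : Subgroup L) : (1 : L) ∈ Om A := mem_Om.2 ⟨A.one_mem, one_mul 1⟩

variable {A : Subgroup L} {t : L}

theorem LData.conj_mem_Inv (D : LData A t) (x : L) : x * t * x⁻¹ ∈ Inv A := by
  rw [mem_Inv]
  refine ⟨?_, D.normal.conj_mem t D.tA x, ?_⟩
  · intro hh
    apply D.t1
    have : t = x⁻¹ * (x * t * x⁻¹) * x := by group
    rw [this, hh]; group
  · calc x * t * x⁻¹ * (x * t * x⁻¹) = x * (t * t) * x⁻¹ := by group
      _ = 1 := by rw [D.t2]; group

open Classical in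
theorem LData.card_fiber (D : LData A t) {s : L} (hs : s ∈ Inv A) :
    (Finset.univ.filter (fun x : L => x * t * x⁻¹ = s)).card = Nat.card A := by
  obtain ⟨hs1, hsA, hs2⟩ := mem_Inv.1 hs
  obtain ⟨g, hg⟩ := D.tr s hsA hs1 hs2
  rw [← Fintype.card_subtype, Nat.card_eq_fintype_card]
  apply Fintype.card_congr
  refine ⟨fun x => ⟨g⁻¹ * x.1, ?_⟩, fun a => ⟨g * a.1, ?_⟩, ?_, ?_⟩
  · apply D.cent t D.tA D.t1
    rw [Subgroup.mem_centralizer_singleton_iff]
    have hx : x.1 * t * x.1⁻¹ = g * t * g⁻¹ := x.2.trans hg.symm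
    calc g⁻¹ * x.1 * t = g⁻¹ * (x.1 * t * x.1⁻¹) * x.1 := by group
      _ = g⁻¹ * (g * t * g⁻¹) * x.1 := by rw [hx]
      _ = t * (g⁻¹ * x.1) := by group
  · have hc : a.1 * t = t * a.1 := D.comm _ a.2 _ D.tA
    calc g * a.1 * t * (g * a.1)⁻¹ = g * (a.1 * t) * a.1⁻¹ * g⁻¹ := by group
      _ = g * (t * a.1) * a.1⁻¹ * g⁻¹ := by rw [hc]
      _ = g * t * g⁻¹ := by group
      _ = s := hg
  · intro x
    apply Subtype.ext
    simp
  · intro a
    apply Subtype.ext
    simp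

theorem LData.sum_conj (D : LData A t) (F : L → ℂ) :
    ∑ x : L, F (x * t * x⁻¹) = (Nat.card A : ℂ) * ∑ s ∈ Inv A, F s := by
  classical
  have hmaps : ∀ x ∈ (Finset.univ : Finset L), x * t * x⁻¹ ∈ Inv A := fun x _ => D.conj_mem_Inv x
  rw [← Finset.sum_fiberwise_of_maps_to hmaps, Finset.mul_sum]
  apply Finset.sum_congr rfl
  intro s hs
  have h1 : ∀ x ∈ Finset.univ.filter (fun x : L => x * t * x⁻¹ = s), F (x * t * x⁻¹) = F s := by
    intro x hx
    rw [(Finset.mem_filter.1 hx).2]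
  rw [Finset.sum_congr rfl h1, Finset.sum_const, D.card_fiber hs, nsmul_eq_mul]

theorem LData.card_Inv (D : LData A t) : (Inv A).card = A.index := by
  have h := D.sum_conj (fun _ => 1)
  simp only [Finset.sum_const, Finset.card_univ, nsmul_eq_mul, mul_one] at h
  have h1 : Fintype.card L = Nat.card A * (Inv A).card := by exact_mod_cast h
  have h2 := A.index_mul_card
  rw [Nat.card_eq_fintype_card (α := L), h1, mul_comm] at h2
  exact (Nat.eq_of_mul_eq_mul_left Nat.card_pos h2).symm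

/-- extension by zero of a linear character of `A` -/
noncomputable def ez (ξ : A →* ℂˣ) : L → ℂ := extendByZero A (fun a => ((ξ a : ℂˣ) : ℂ))

/-- the induced character -/
noncomputable def th (ξ : A →* ℂˣ) : L → ℂ := indFun A (fun a => ((ξ a : ℂˣ) : ℂ))

theorem ez_of_mem (ξ : A →* ℂˣ) {a : L} (ha : a ∈ A) : ez ξ a = ((ξ ⟨a, ha⟩ : ℂˣ) : ℂ) :=
  Helper19.extendByZero_of_mem A _ ha

theorem ez_mul (ξ : A →* ℂˣ) {a b : L} (ha : a ∈ A) (hb : b ∈ A) :
    ez ξ (a * b) = ez ξ a * ez ξ b := by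
  rw [ez_of_mem ξ ha, ez_of_mem ξ hb, ez_of_mem ξ (A.mul_mem ha hb), ← Units.val_mul, ← map_mul]
  rfl

theorem ez_one (ξ : A →* ℂˣ) : ez ξ (1 : L) = 1 := by
  rw [ez_of_mem ξ A.one_mem]
  have : (⟨1, A.one_mem⟩ : A) = 1 := rfl
  rw [this, map_one, Units.val_one]

theorem LData.th_t (D : LData A t) (ξ : A →* ℂˣ) : th ξ t = ∑ s ∈ Inv A, ez ξ s := by
  have h0 : (Nat.card A : ℂ) ≠ 0 := by exact_mod_cast Nat.card_pos.ne'
  have h1 : ∑ x : L, ez ξ (x⁻¹ * t * x) = ∑ x : L, ez ξ (x * t * x⁻¹) := by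
    refine Fintype.sum_equiv (Equiv.inv L) _ _ ?_
    intro x
    simp
  show (Nat.card A : ℂ)⁻¹ * ∑ x : L, ez ξ (x⁻¹ * t * x) = _
  rw [h1, D.sum_conj, ← mul_assoc, inv_mul_cancel₀ h0, one_mul]

theorem LData.th_t_of_trivial (D : LData A t) (ξ : A →* ℂˣ)
    (hξ : ∀ a : A, a * a = 1 → ξ a = 1) : th ξ t = (A.index : ℂ) := by
  rw [D.th_t, ← D.card_Inv]
  have : ∀ s ∈ Inv A, ez ξ s = 1 := by
    intro s hs
    obtain ⟨-, hsA, hs2⟩ := mem_Inv.1 hs
    rw [ez_of_mem ξ hsA, hξ ⟨s, hsA⟩ (Subtype.ext hs2), Units.val_one]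
  rw [Finset.sum_congr rfl this]
  simp

theorem LData.th_t_of_ne (D : LData A t) (ξ : A →* ℂˣ) (hξ : ξ ⟨t, D.tA⟩ ≠ 1) :
    th ξ t = -1 := by
  classical
  have ht : ez ξ t = -1 := by
    have h1 : ez ξ t * ez ξ t = 1 := by rw [← ez_mul ξ D.tA D.tA, D.t2, ez_one]
    have h2 : ez ξ t ≠ 1 := by
      intro hh
      apply hξ
      apply Units.ext
      rw [← ez_of_mem ξ D.tA, hh, Units.val_one]
    rcases mul_self_eq_one_iff.1 h1 with h | h
    · exact absurd h h2
    · exact h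
  have hmap : ∀ s ∈ Om A, s * t ∈ Om A := by
    intro s hs
    obtain ⟨hsA, hs2⟩ := mem_Om.1 hs
    refine mem_Om.2 ⟨A.mul_mem hsA D.tA, ?_⟩
    calc s * t * (s * t) = s * (t * s) * t := by group
      _ = s * (s * t) * t := by rw [D.comm t D.tA s hsA]
      _ = (s * s) * (t * t) := by group
      _ = 1 := by rw [hs2, D.t2, one_mul]
  have hbij : ∑ s ∈ Om A, ez ξ (s * t) = ∑ s ∈ Om A, ez ξ s := by
    refine Finset.sum_nbij' (fun s => s * t) (fun s => s * t) hmap hmap ?_ ?_ ?_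
    · intro s _
      rw [mul_assoc, D.t2, mul_one]
    · intro s _
      rw [mul_assoc, D.t2, mul_one]
    · intro s _
      rfl
  have h3 : ∑ s ∈ Om A, ez ξ (s * t) = - ∑ s ∈ Om A, ez ξ s := by
    rw [← Finset.sum_neg_distrib]
    apply Finset.sum_congr rfl
    intro s hs
    rw [ez_mul ξ (mem_Om.1 hs).1 D.tA, ht, mul_neg_one]
  have h4 : ∑ s ∈ Om A, ez ξ s = 0 := by
    rw [hbij] at h3
    have : (2 : ℂ) * ∑ s ∈ Om A, ez ξ s = 0 := by linear_combination h3
    rcases mul_eq_zero.1 this with h | h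
    · norm_num at h
    · exact h
  rw [D.th_t, Inv, Finset.sum_erase_eq_sub (one_mem_Om A), h4, ez_one, zero_sub]

theorem LData.th_irr (D : LData A t) (ξ : A →* ℂˣ) (hξ : ξ ≠ 1) : IsIrrCharacter L (th ξ) := by
  apply Helper5.indFun_irr_of_frob' D.normal D.cent (Helper83.isIrr_of_hom ξ)
  intro hh
  apply hξ
  ext a
  have := congrFun hh a
  simpa using this

theorem LData.th_rel (D : LData A t) (ξ : A →* ℂˣ) (hξ : ξ ≠ 1) :
    ∃ k ∈ A, th ξ k ≠ th ξ 1 := by
  apply Helper5.indFun_relevant D.normal D.cent (Helper83.isIrr_of_hom ξ)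
  intro hh
  apply hξ
  ext a
  have := congrFun hh a
  simpa using this

theorem th_one (ξ : A →* ℂˣ) : th ξ (1 : L) = (A.index : ℂ) := by
  show indFun A _ 1 = _
  rw [Helper82.indFun_one, map_one, Units.val_one, mul_one]

theorem LData.th_off (D : LData A t) (ξ : A →* ℂˣ) {x : L} (hx : x ∉ A) : th ξ x = 0 :=
  haveI := D.normal
  Helper32.indFun_normal_eq_zero A _ hx

theorem LData.exists_xi1 (D : LData A t) {u : L} (hu : u ∈ A) (hu2 : u * u ≠ 1) :
    ∃ ξ : A →* ℂˣ, ξ ≠ 1 ∧ ∀ a : A, a * a = 1 → ξ a = 1 := by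
  have hA : ∀ a b : A, a * b = b * a := fun a b => Subtype.ext (D.comm a a.2 b b.2)
  let Ω : Subgroup A :=
    { carrier := {a | a * a = 1}
      one_mem' := one_mul 1
      mul_mem' := by
        intro a b ha hb
        show a * b * (a * b) = 1
        calc a * b * (a * b) = a * (b * a) * b := by group
          _ = a * (a * b) * b := by rw [hA b a]
          _ = (a * a) * (b * b) := by group
          _ = 1 := by rw [ha, hb, one_mul]
      inv_mem' := by
        intro a ha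
        show a⁻¹ * a⁻¹ = 1
        rw [← mul_inv_rev, ha, inv_one] }
  have hx : (⟨u, hu⟩ : A) ∉ Ω := fun hh => hu2 (congrArg Subtype.val hh)
  obtain ⟨φ, h1, h2⟩ := Helper32.exists_hom_ne_one_of_not_mem hA Ω hx
  refine ⟨φ, ?_, fun a ha => h1 a ha⟩
  rintro rfl
  exact h2 rfl

theorem LData.exists_xi2 (D : LData A t) : ∃ ξ : A →* ℂˣ, ξ ⟨t, D.tA⟩ ≠ 1 := by
  have hA : ∀ a b : A, a * b = b * a := fun a b => Subtype.ext (D.comm a a.2 b b.2)
  have hx : (⟨t, D.tA⟩ : A) ∉ (⊥ : Subgroup A) := by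
    intro hh
    exact D.t1 (congrArg Subtype.val (Subgroup.mem_bot.1 hh))
  obtain ⟨φ, -, h2⟩ := Helper32.exists_hom_ne_one_of_not_mem hA ⊥ hx
  exact ⟨φ, h2⟩

/-- sum of an irreducible character not constant on `A` -/
theorem sum_eq_zero_of_irr {θ : L → ℂ} (hθ : IsIrrCharacter L θ) (hrel : ∃ k ∈ A, θ k ≠ θ 1) :
    ∑ x : L, θ x = 0 := by
  have hne : θ ≠ fun _ => 1 := by
    rintro rfl
    obtain ⟨k, -, hk⟩ := hrel
    exact hk rfl
  have h := classInner_irr_ne hθ Helper83.isIrr_trivial hne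
  unfold classInner at h
  have h0 : (Nat.card L : ℂ)⁻¹ ≠ 0 := inv_ne_zero (by exact_mod_cast Nat.card_pos.ne')
  have := (mul_eq_zero.1 h).resolve_left h0
  simpa using this

open Classical in
/-- the truncation of `θ + m` to the non-identity elements of `A` -/
noncomputable def trunc (A : Subgroup L) (θ : L → ℂ) (m : ℂ) : L → ℂ :=
  fun x => if x ∈ A ∧ x ≠ 1 then θ x + m else 0

theorem inner_trunc {θ : L → ℂ} (hθ : IsIrrCharacter L θ) (hrel : ∃ k ∈ A, θ k ≠ θ 1)
    (hoff : ∀ x, x ∉ A → θ x = 0) (e : ℤ) (h1 : θ 1 = e) (m : ℤ) :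
    (Nat.card L : ℂ) * classInner (trunc A θ m) (trunc A θ m)
      = (Nat.card L : ℂ) + (m : ℂ) ^ 2 * (Nat.card A : ℂ) - ((e : ℂ) + m) ^ 2 := by
  classical
  have h0 : (Nat.card L : ℂ) ≠ 0 := by exact_mod_cast Nat.card_pos.ne'
  have hs := sum_eq_zero_of_irr hθ hrel
  have hs' : ∑ x : L, conj (θ x) = 0 := by rw [← map_sum, hs, map_zero]
  have hn : ∑ x : L, θ x * conj (θ x) = (Nat.card L : ℂ) := by
    have := classInner_irr_self hθ
    unfold classInner at this
    field_simp at this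
    exact this
  have hpt : ∀ x : L, trunc A θ m x * conj (trunc A θ m x)
      = θ x * conj (θ x) + (m : ℂ) * θ x + (m : ℂ) * conj (θ x)
        + (if x ∈ A then (m : ℂ) ^ 2 else 0) - (if x = 1 then ((e : ℂ) + m) ^ 2 else 0) := by
    intro x
    unfold trunc
    by_cases hxA : x ∈ A
    · by_cases hx1 : x = 1
      · subst hx1
        simp [h1, A.one_mem]
        ring
      · simp [hxA, hx1]
        ring
    · have hx1 : x ≠ 1 := fun hh => hxA (hh ▸ A.one_mem)
      simp [hxA, hx1, hoff x hxA]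
  unfold classInner
  rw [← mul_assoc, mul_inv_cancel₀ h0, one_mul, Finset.sum_congr rfl (fun x _ => hpt x),
    Finset.sum_sub_distrib, Finset.sum_add_distrib, Finset.sum_add_distrib,
    Finset.sum_add_distrib, hn, ← Finset.mul_sum, ← Finset.mul_sum, hs, hs', mul_zero, add_zero,
    add_zero, Finset.sum_ite_eq' Finset.univ (1 : L), if_pos (Finset.mem_univ _),
    ← Finset.sum_filter, Finset.sum_const, nsmul_eq_mul]
  have hc : ((Finset.univ.filter (fun x : L => x ∈ A)).card : ℂ) = (Nat.card A : ℂ) := by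
    rw [← Fintype.card_subtype, Nat.card_eq_fintype_card]
  rw [hc]
  ring

/-- double sum of a class function over products of two conjugates of `t` -/
theorem LData.sum_sum_conj (D : LData A t) {φ : L → ℂ} (hφ : IsClassFunction L φ)
    (h1 : φ 1 = 0) :
    ∑ a : L, ∑ b : L, φ (a * t * a⁻¹ * (b * t * b⁻¹))
      = (Nat.card A : ℂ) ^ 2 * ((A.index : ℂ) * ((A.index : ℂ) - 1)) * φ t := by
  classical
  have hI : ∀ s ∈ Inv A, φ s = φ t := by
    intro s hs
    obtain ⟨hs1, hsA, hs2⟩ := mem_Inv.1 hs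
    obtain ⟨g, rfl⟩ := D.tr s hsA hs1 hs2
    exact hφ t g
  have hrs : ∀ r ∈ Inv A, ∀ s ∈ Inv A, φ (r * s) = φ t - (if r = s then φ t else 0) := by
    intro r hr s hs
    obtain ⟨hr1, hrA, hr2⟩ := mem_Inv.1 hr
    obtain ⟨hs1, hsA, hs2⟩ := mem_Inv.1 hs
    by_cases h : r = s
    · subst h
      rw [hr2, h1, if_pos rfl, sub_self]
    · rw [if_neg h, sub_zero]
      apply hI
      refine mem_Inv.2 ⟨?_, A.mul_mem hrA hsA, ?_⟩
      · intro hh
        apply h
        have : r = s⁻¹ := eq_inv_of_mul_eq_one_left hh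
        rw [this]
        exact inv_eq_of_mul_eq_one_left hs2
      · calc r * s * (r * s) = r * (s * r) * s := by group
          _ = r * (r * s) * s := by rw [D.comm s hsA r hrA]
          _ = (r * r) * (s * s) := by group
          _ = 1 := by rw [hr2, hs2, one_mul]
  have step1 : ∀ a : L, ∑ b : L, φ (a * t * a⁻¹ * (b * t * b⁻¹))
      = (Nat.card A : ℂ) * ∑ s ∈ Inv A, φ (a * t * a⁻¹ * s) :=
    fun a => D.sum_conj (fun s => φ (a * t * a⁻¹ * s))
  rw [Finset.sum_congr rfl (fun a _ => step1 a), ← Finset.mul_sum,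
    D.sum_conj (fun r => ∑ s ∈ Inv A, φ (r * s))]
  have step2 : ∀ r ∈ Inv A, ∑ s ∈ Inv A, φ (r * s) = ((A.index : ℂ) - 1) * φ t := by
    intro r hr
    rw [Finset.sum_congr rfl (fun s hs => hrs r hr s hs), Finset.sum_sub_distrib,
      Finset.sum_const, Finset.sum_ite_eq (Inv A) r, if_pos hr, D.card_Inv, nsmul_eq_mul]
    ring
  rw [Finset.sum_congr rfl step2, Finset.sum_const, D.card_Inv, nsmul_eq_mul]
  ring

end Cfsg.Agent.Lib.Helper12.FA
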