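import Cfsg.Agent.Lib.Helper12.FA1
import Cfsg.Agent.Lib.Helper82.StructConst

/-!
# An abelian T.I. subgroup with involutions: group side and the class-product identity
-/

set_option autoImplicit false
set_option linter.unusedSectionVars false
set_option linter.unusedVariables false

open Cfsg
open scoped ComplexConjugate

namespace Cfsg.Agent.Lib.Helper12.FA

open Cfsg.Agent.Lib.Helper20

variable {G : Type*} [Group G]

/-- abelian subgroup containing the centralisers of its non-identity elements, whose involutions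
are conjugate to `t` under the normaliser -/
structure GData (K : Subgroup G) (t : G) : Prop where
  comm : ∀ a ∈ K, ∀ b ∈ K, a * b = b * a
  cent : ∀ k ∈ K, k ≠ 1 → Subgroup.centralizer ({k} : Set G) ≤ K
  tK : t ∈ K
  t1 : t ≠ 1
  t2 : t * t = 1
  tr : ∀ s ∈ K, s ≠ 1 → s * s = 1 → ∃ g ∈ Subgroup.normalizer (K : Set G), g * t * g⁻¹ = s

variable {K : Subgroup G} {t : G}

theorem GData.mem_of_comm (D : GData K t) {k x : G} (hk : k ∈ K) (hk1 : k ≠ 1)
    (hx : x * k = k * x) : x ∈ K :=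
  D.cent k hk hk1 (Subgroup.mem_centralizer_singleton_iff.2 hx)

theorem GData.ti (D : GData K t) : ∀ g : G, g ∉ Subgroup.normalizer (K : Set G) → ∀ k ∈ K,
    g * k * g⁻¹ ∈ K → k = 1 := by
  intro g hg k hk hgk
  by_contra hk1
  apply hg
  have hk1' : g * k * g⁻¹ ≠ 1 := by
    intro hh
    apply hk1
    have : k = g⁻¹ * (g * k * g⁻¹) * g := by group
    rw [this, hh]; group
  rw [Subgroup.mem_normalizer_iff]
  intro h
  constructor
  · intro hh
    apply D.mem_of_comm hgk hk1'
    calc g * h * g⁻¹ * (g * k * g⁻¹) = g * (h * k) * g⁻¹ := by group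
      _ = g * (k * h) * g⁻¹ := by rw [D.comm h hh k hk]
      _ = g * k * g⁻¹ * (g * h * g⁻¹) := by group
  · intro hh
    apply D.mem_of_comm hk hk1
    have e := D.comm _ hh _ hgk
    calc h * k = g⁻¹ * (g * h * g⁻¹ * (g * k * g⁻¹)) * g := by group
      _ = g⁻¹ * (g * k * g⁻¹ * (g * h * g⁻¹)) * g := by rw [e]
      _ = k * h := by group

theorem GData.conj_mem (D : GData K t) {x k : G} (hx : x ∈ Subgroup.normalizer (K : Set G))
    (hk : k ∈ K) : x * k * x⁻¹ ∈ K := (Subgroup.mem_normalizer_iff.1 hx k).1 hk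

/-- an involution normalising `K` lies in `K` -/
theorem GData.invol_mem (D : GData K t) {x : G} (hx : x ∈ Subgroup.normalizer (K : Set G))
    (hx2 : x * x = 1) : x ∈ K := by
  have hxi : x⁻¹ = x := inv_eq_of_mul_eq_one_left hx2
  have h1 : x * t * x ∈ K := by
    have := D.conj_mem hx D.tK
    rwa [hxi] at this
  by_cases h : x * t * x = t
  · apply D.mem_of_comm D.tK D.t1
    calc x * t = (x * t * x) * x⁻¹ := by group
      _ = t * x := by rw [h, hxi]
  · have hw : t * (x * t * x) ∈ K := K.mul_mem D.tK h1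
    have hw1 : t * (x * t * x) ≠ 1 := by
      intro hh
      apply h
      have : x * t * x = t⁻¹ := (inv_eq_of_mul_eq_one_right hh).symm
      rw [this]
      exact inv_eq_of_mul_eq_one_left D.t2
    apply D.mem_of_comm hw hw1
    calc x * (t * (x * t * x)) = (x * t * x) * t * x := by group
      _ = t * (x * t * x) * x := by rw [D.comm _ h1 _ D.tK]

/-- the base involution as an element of the normaliser -/
def GData.t' (D : GData K t) : Subgroup.normalizer (K : Set G) := ⟨t, Subgroup.le_normalizer D.tK⟩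

theorem GData.toL [Fintype (Subgroup.normalizer (K : Set G))] (D : GData K t) :
    LData (K.subgroupOf (Subgroup.normalizer (K : Set G))) D.t' where
  normal := Subgroup.normal_in_normalizer
  comm := fun a ha b hb => Subtype.ext (D.comm a ha b hb)
  cent := by
    intro k hk hk1 x hx
    rw [Subgroup.mem_centralizer_singleton_iff] at hx
    exact D.mem_of_comm (k := (k : G)) hk (fun hh => hk1 (Subtype.ext hh))
      (congrArg Subtype.val hx)
  tA := D.tK
  t1 := fun hh => D.t1 (congrArg Subtype.val hh)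
  t2 := Subtype.ext D.t2
  tr := by
    intro s hs hs1 hs2
    obtain ⟨g, hg, hgs⟩ := D.tr s hs (fun hh => hs1 (Subtype.ext hh)) (congrArg Subtype.val hs2)
    exact ⟨⟨g, hg⟩, Subtype.ext hgs⟩

variable [Fintype G]

theorem sum_subgroup (N : Subgroup G) [Fintype N] (g : G → ℂ) (h : ∀ a, a ∉ N → g a = 0) :
    ∑ a : G, g a = ∑ a : N, g a := by
  classical
  rw [← Finset.sum_subtype (Finset.univ.filter (· ∈ N)) (by simp) g]
  exact (Finset.sum_filter_of_ne (fun a _ hne => by_contra (fun hh => hne (h a hh)))).symm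

/-- class-product sum of a signed irreducible character -/
theorem sum_sum_signed {Θ : G → ℂ} (hΘ : IsIrrCharacter G Θ ∨ IsIrrCharacter G (-Θ)) (t : G) :
    ∑ a : G, ∑ b : G, Θ (a * t * a⁻¹ * (b * t * b⁻¹)) * Θ 1
      = (Nat.card G : ℂ) ^ 2 * Θ t ^ 2 := by
  rcases hΘ with h | h
  · have h1 := Helper82.isIrr_sum_sum_conj_mul_conj_mul h t t 1
    simp only [mul_one] at h1
    have h0 := Helper82.isIrr_one_ne_zero h
    simp only [← Finset.sum_mul]
    rw [h1]
    field_simp
  · have h1 := Helper82.isIrr_sum_sum_conj_mul_conj_mul h t t 1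
    simp only [mul_one, Pi.neg_apply, Finset.sum_neg_distrib] at h1
    have h0 := Helper82.isIrr_one_ne_zero h
    simp only [Pi.neg_apply] at h0
    have h0' : Θ 1 ≠ 0 := fun hh => h0 (by rw [hh, neg_zero])
    simp only [← Finset.sum_mul]
    have h2 : ∑ a : G, ∑ b : G, Θ (a * t * a⁻¹ * (b * t * b⁻¹))
        = -((Nat.card G : ℂ) ^ 2 * -Θ t * -Θ t * -Θ 1 / (-Θ 1) ^ 2) := by
      rw [← h1, neg_neg]
    rw [h2]
    field_simp

/-- class-product sum of an induced function -/
theorem sum_sum_ind (N : Subgroup G) (φ : N → ℂ) (t : G) :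
    ∑ a : G, ∑ b : G, indFun N φ (a * t * a⁻¹ * (b * t * b⁻¹))
      = (N.index : ℂ) * ∑ a : G, ∑ b : G, extendByZero N φ (a * t * a⁻¹ * (b * t * b⁻¹)) := by
  have key : ∀ x : G, ∑ a : G, ∑ b : G,
      extendByZero N φ (x⁻¹ * (a * t * a⁻¹ * (b * t * b⁻¹)) * x)
      = ∑ a : G, ∑ b : G, extendByZero N φ (a * t * a⁻¹ * (b * t * b⁻¹)) := by
    intro x
    refine Fintype.sum_equiv (Equiv.mulLeft x⁻¹) _ _ ?_
    intro a
    refine Fintype.sum_equiv (Equiv.mulLeft x⁻¹) _ _ ?_
    intro b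
    simp only [Equiv.coe_mulLeft]
    congr 1
    group
  have h1 : ∑ a : G, ∑ b : G, indFun N φ (a * t * a⁻¹ * (b * t * b⁻¹))
      = (Nat.card N : ℂ)⁻¹ * ∑ x : G, ∑ a : G, ∑ b : G,
        extendByZero N φ (x⁻¹ * (a * t * a⁻¹ * (b * t * b⁻¹)) * x) := by
    simp only [Helper19.indFun_apply, ← Finset.mul_sum]
    congr 1
    rw [Finset.sum_congr rfl (fun a _ => Finset.sum_comm)]
    exact Finset.sum_comm
  rw [h1, Finset.sum_congr rfl (fun x _ => key x), Finset.sum_const, Finset.card_univ,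
    nsmul_eq_mul, ← mul_assoc, Helper19.index_eq_div, Nat.card_eq_fintype_card (α := G)]

theorem GData.mem_of_ext_ne_zero (D : GData K t)
    (φ : Subgroup.normalizer (K : Set G) → ℂ) (h1 : φ 1 = 0)
    (hoff : ∀ x : Subgroup.normalizer (K : Set G), (x : G) ∉ K → φ x = 0) {a b : G}
    (hne : extendByZero (Subgroup.normalizer (K : Set G)) φ (a * t * a⁻¹ * (b * t * b⁻¹)) ≠ 0) :
    a ∈ Subgroup.normalizer (K : Set G) ∧ b ∈ Subgroup.normalizer (K : Set G) := by
  set k := a * t * a⁻¹ * (b * t * b⁻¹) with hk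
  have hkN : k ∈ Subgroup.normalizer (K : Set G) := by
    by_contra hh
    exact hne (Helper19.extendByZero_of_not_mem _ φ hh)
  rw [Helper19.extendByZero_of_mem _ φ hkN] at hne
  have hkK : k ∈ K := by
    by_contra hh
    exact hne (hoff ⟨k, hkN⟩ hh)
  have hk1 : k ≠ 1 := by
    intro hh
    apply hne
    have : (⟨k, hkN⟩ : Subgroup.normalizer (K : Set G)) = 1 := Subtype.ext hh
    rw [this, h1]
  have hx2 : a * t * a⁻¹ * (a * t * a⁻¹) = 1 := by
    calc a * t * a⁻¹ * (a * t * a⁻¹) = a * (t * t) * a⁻¹ := by group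
      _ = 1 := by rw [D.t2]; group
  have hy2 : b * t * b⁻¹ * (b * t * b⁻¹) = 1 := by
    calc b * t * b⁻¹ * (b * t * b⁻¹) = b * (t * t) * b⁻¹ := by group
      _ = 1 := by rw [D.t2]; group
  have hxi : (a * t * a⁻¹)⁻¹ = a * t * a⁻¹ := inv_eq_of_mul_eq_one_left hx2
  have hyi : (b * t * b⁻¹)⁻¹ = b * t * b⁻¹ := inv_eq_of_mul_eq_one_left hy2
  have hki : k⁻¹ = b * t * b⁻¹ * (a * t * a⁻¹) := by
    rw [hk, mul_inv_rev, hxi, hyi]
  have hinv : (a * t * a⁻¹) * k * (a * t * a⁻¹)⁻¹ = k⁻¹ := by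
    rw [hki, hxi, hk]
    generalize a * t * a⁻¹ = x at hx2 ⊢
    generalize b * t * b⁻¹ = y
    rw [← mul_assoc, hx2, one_mul]
  have hxN : a * t * a⁻¹ ∈ Subgroup.normalizer (K : Set G) := by
    by_contra hh
    exact hk1 (D.ti _ hh k hkK (by rw [hinv]; exact K.inv_mem hkK))
  have hxK : a * t * a⁻¹ ∈ K := D.invol_mem hxN hx2
  have hyK : b * t * b⁻¹ ∈ K := by
    have : b * t * b⁻¹ = (a * t * a⁻¹)⁻¹ * k := by rw [hk]; group
    rw [this]
    exact K.mul_mem (K.inv_mem hxK) hkK
  constructor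
  · by_contra hh
    exact D.t1 (D.ti a hh t D.tK hxK)
  · by_contra hh
    exact D.t1 (D.ti b hh t D.tK hyK)

theorem GData.sum_sum_ext [Fintype (Subgroup.normalizer (K : Set G))] (D : GData K t)
    (φ : Subgroup.normalizer (K : Set G) → ℂ) (h1 : φ 1 = 0)
    (hoff : ∀ x : Subgroup.normalizer (K : Set G), (x : G) ∉ K → φ x = 0) :
    ∑ a : G, ∑ b : G,
      extendByZero (Subgroup.normalizer (K : Set G)) φ (a * t * a⁻¹ * (b * t * b⁻¹))
      = ∑ a : Subgroup.normalizer (K : Set G), ∑ b : Subgroup.normalizer (K : Set G),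
        φ (a * D.t' * a⁻¹ * (b * D.t' * b⁻¹)) := by
  rw [sum_subgroup (Subgroup.normalizer (K : Set G))]
  · apply Finset.sum_congr rfl
    intro a _
    rw [sum_subgroup (Subgroup.normalizer (K : Set G))]
    · apply Finset.sum_congr rfl
      intro b _
      exact Helper19.extendByZero_coe _ φ (a * D.t' * a⁻¹ * (b * D.t' * b⁻¹))
    · intro b hb
      by_contra hne
      exact hb (D.mem_of_ext_ne_zero φ h1 hoff hne).2
  · intro a ha
    apply Finset.sum_eq_zero
    intro b _
    by_contra hne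
    exact ha (D.mem_of_ext_ne_zero φ h1 hoff hne).1

end Cfsg.Agent.Lib.Helper12.FA
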