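import Cfsg.Agent.Lib.Helper12.FA2

/-!
# Counting lemmas and the final numerical contradiction
-/

set_option autoImplicit false
set_option linter.unusedSectionVars false
set_option linter.unusedVariables false

open Cfsg
open scoped ComplexConjugate

namespace Cfsg.Agent.Lib.Helper12.FA

theorem numerics (e μ n d m : ℤ) (he : 3 ≤ e) (hμ : 2 * e + 2 ≤ μ) (hn : 4 ≤ n)
    (R1 : d * (e - 1) = n * e * (e - 1 + 2 * m))
    (R2 : d ^ 2 ≤ n * ((e + m) ^ 2 - m ^ 2 * μ)) : False := by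
  have hn0 : 0 < n := by linarith
  have he0 : 0 < e := by linarith
  have he1 : 0 < e - 1 := by linarith
  have hne : 0 < n * e := mul_pos hn0 he0
  have hm2 : m ^ 2 * (2 * e + 2) ≤ m ^ 2 * μ := mul_le_mul_of_nonneg_left hμ (sq_nonneg m)
  rcases le_or_gt 0 m with hm | hm
  · have h1 : n * e ≤ d := by
      by_contra hlt
      push Not at hlt
      have : (n * e - d) * (e - 1) > 0 := mul_pos (by linarith) he1
      have h2 : 0 ≤ n * e * m := mul_nonneg hne.le hm
      nlinarith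
    have h2 : (n * e) ^ 2 ≤ d ^ 2 := pow_le_pow_left₀ hne.le h1 2
    have h3 : n * e ^ 2 ≤ (e + m) ^ 2 - m ^ 2 * μ := by
      have : n * (n * e ^ 2) ≤ n * ((e + m) ^ 2 - m ^ 2 * μ) := by nlinarith
      exact le_of_mul_le_mul_left this hn0
    have h5 : m ≤ m ^ 2 := by nlinarith
    have h6 : m * (2 * e + 1) ≤ m ^ 2 * (2 * e + 1) :=
      mul_le_mul_of_nonneg_right h5 (by linarith)
    have h7 : 4 * e ^ 2 ≤ n * e ^ 2 := mul_le_mul_of_nonneg_right hn (sq_nonneg e)
    nlinarith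
  · obtain ⟨k, rfl⟩ : ∃ k, m = -k := ⟨-m, by ring⟩
    have hk : 1 ≤ k := by linarith
    have h0 : 0 ≤ (e + -k) ^ 2 - (-k) ^ 2 * μ := by
      by_contra hlt
      push Not at hlt
      have : n * ((e + -k) ^ 2 - (-k) ^ 2 * μ) < 0 := mul_neg_of_pos_of_neg hn0 hlt
      nlinarith [sq_nonneg d]
    have h1 : e * (2 * k + 2 * k ^ 2) < e * e := by nlinarith
    have h2 : 2 * k + 2 * k ^ 2 < e := lt_of_mul_lt_mul_left h1 he0.le
    have h3 : 4 * k < e := by nlinarith
    have h4 : n * e ≤ 2 * d := by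
      by_contra hlt
      push Not at hlt
      have h5 : (n * e - 2 * d) * (e - 1) > 0 := mul_pos (by linarith) he1
      have h6 : 0 ≤ n * e * (e - 1 - 4 * k) := mul_nonneg hne.le (by linarith)
      nlinarith
    have h5 : (n * e) ^ 2 ≤ (2 * d) ^ 2 := pow_le_pow_left₀ hne.le h4 2
    have h6 : (e + -k) ^ 2 - (-k) ^ 2 * μ < e ^ 2 := by nlinarith
    have h7 : n * ((e + -k) ^ 2 - (-k) ^ 2 * μ) < n * e ^ 2 := mul_lt_mul_of_pos_left h6 hn0
    have h8 : n * (n * e ^ 2) < n * (4 * e ^ 2) := by nlinarith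
    have h9 : n * e ^ 2 < 4 * e ^ 2 := lt_of_mul_lt_mul_left h8 hn0.le
    have h10 : 4 * e ^ 2 ≤ n * e ^ 2 := mul_le_mul_of_nonneg_right hn (sq_nonneg e)
    linarith

section L
variable {L : Type*} [Group L] [Fintype L] {A : Subgroup L} {t : L}

theorem LData.card_Om (D : LData A t) : (Om A).card = A.index + 1 := by
  classical
  rw [← D.card_Inv, Inv, Finset.card_erase_of_mem (one_mem_Om A)]
  have : 0 < (Om A).card := Finset.card_pos.2 ⟨1, one_mem_Om A⟩
  omega

theorem LData.three_le_index (D : LData A t) {s : L} (hs : s ∈ A) (hs1 : s ≠ 1) (hst : s ≠ t)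
    (hs2 : s * s = 1) : 3 ≤ A.index := by
  rw [← D.card_Inv]
  have hsi : s⁻¹ = s := inv_eq_of_mul_eq_one_left hs2
  apply Finset.two_lt_card_iff.2
  refine ⟨t, s, s * t, mem_Inv.2 ⟨D.t1, D.tA, D.t2⟩, mem_Inv.2 ⟨hs1, hs, hs2⟩,
    mem_Inv.2 ⟨?_, A.mul_mem hs D.tA, ?_⟩, hst.symm, ?_, ?_⟩
  · intro hh
    apply hst
    rw [← hsi]
    exact (eq_inv_of_mul_eq_one_right hh).symm ▸ rfl
  · calc s * t * (s * t) = s * (t * s) * t := by group
      _ = s * (s * t) * t := by rw [D.comm t D.tA s hs]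
      _ = (s * s) * (t * t) := by group
      _ = 1 := by rw [hs2, D.t2, one_mul]
  · intro hh
    apply hs1
    have : s * t = 1 * t := by rw [one_mul]; exact hh.symm
    exact mul_right_cancel this
  · intro hh
    apply D.t1
    have : s * t = s * 1 := by rw [mul_one]; exact hh.symm
    exact mul_left_cancel this

theorem LData.card_ge (D : LData A t) {u : L} (hu : u ∈ A) (hu2 : u * u ≠ 1) :
    2 * A.index + 2 ≤ Nat.card A := by
  classical
  have hdisj : Disjoint (Om A) ((Om A).image (fun x => u * x)) := by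
    rw [Finset.disjoint_left]
    intro x hx hx'
    obtain ⟨y, hy, rfl⟩ := Finset.mem_image.1 hx'
    obtain ⟨hyA, hy2⟩ := mem_Om.1 hy
    obtain ⟨-, hx2⟩ := mem_Om.1 hx
    apply hu2
    calc u * u = (u * u) * (y * y) := by rw [hy2, mul_one]
      _ = u * (u * y) * y := by group
      _ = u * (y * u) * y := by rw [D.comm u hu y hyA]
      _ = u * y * (u * y) := by group
      _ = 1 := hx2
  have hsub : (Om A) ∪ ((Om A).image (fun x => u * x)) ⊆ Finset.univ.filter (fun x : L => x ∈ A) := by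
    intro x hx
    rw [Finset.mem_filter]
    refine ⟨Finset.mem_univ _, ?_⟩
    rcases Finset.mem_union.1 hx with h | h
    · exact (mem_Om.1 h).1
    · obtain ⟨y, hy, rfl⟩ := Finset.mem_image.1 h
      exact A.mul_mem hu (mem_Om.1 hy).1
  have h1 := Finset.card_le_card hsub
  rw [Finset.card_union_of_disjoint hdisj,
    Finset.card_image_of_injective _ (mul_right_injective u), D.card_Om,
    ← Fintype.card_subtype] at h1
  rw [Nat.card_eq_fintype_card]
  have : Fintype.card {x // x ∈ A} = Fintype.card A := rfl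
  omega

end L

section G
variable {G : Type*} [Group G] [Fintype G] {K : Subgroup G} {t : G}

theorem GData.index_ge [Fintype (Subgroup.normalizer (K : Set G))] (D : GData K t) {g₀ : G}
    (hg : g₀ ∉ Subgroup.normalizer (K : Set G)) :
    (K.subgroupOf (Subgroup.normalizer (K : Set G))).index + 1
      ≤ (Subgroup.normalizer (K : Set G)).index := by
  classical
  rw [← D.toL.card_Om, Subgroup.index, Nat.card_eq_fintype_card, ← Finset.card_univ]
  apply Finset.card_le_card_of_injOn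
    (fun x : Subgroup.normalizer (K : Set G) =>
      (((x : G) * g₀ : G) : G ⧸ Subgroup.normalizer (K : Set G)))
    (fun _ _ => Finset.mem_coe.2 (Finset.mem_univ _))
  intro x hx y hy hxy
  obtain ⟨hxA, hx2⟩ := mem_Om.1 (Finset.mem_coe.1 hx)
  obtain ⟨hyA, hy2⟩ := mem_Om.1 (Finset.mem_coe.1 hy)
  have hxK : (x : G) ∈ K := hxA
  have hyK : (y : G) ∈ K := hyA
  have hx2' : (x : G) * x = 1 := congrArg Subtype.val hx2
  have hy2' : (y : G) * y = 1 := congrArg Subtype.val hy2
  have h1 : ((x : G) * g₀)⁻¹ * ((y : G) * g₀) ∈ Subgroup.normalizer (K : Set G) :=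
    QuotientGroup.eq.1 hxy
  have hxi : (x : G)⁻¹ = x := inv_eq_of_mul_eq_one_left hx2'
  have h2 : g₀⁻¹ * ((x : G) * y) * g₀⁻¹⁻¹ ∈ Subgroup.normalizer (K : Set G) := by
    have : g₀⁻¹ * ((x : G) * y) * g₀⁻¹⁻¹ = ((x : G) * g₀)⁻¹ * ((y : G) * g₀) := by
      rw [mul_inv_rev, hxi, inv_inv]; group
    rw [this]; exact h1
  have hz2 : ((x : G) * y) * ((x : G) * y) = 1 := by
    calc ((x : G) * y) * ((x : G) * y) = x * (y * x) * y := by group
      _ = x * (x * y) * y := by rw [D.comm _ hyK _ hxK]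
      _ = (x * x) * (y * y) := by group
      _ = 1 := by rw [hx2', hy2', one_mul]
  have h3 : g₀⁻¹ * ((x : G) * y) * g₀⁻¹⁻¹ ∈ K := by
    apply D.invol_mem h2
    calc g₀⁻¹ * ((x : G) * y) * g₀⁻¹⁻¹ * (g₀⁻¹ * ((x : G) * y) * g₀⁻¹⁻¹)
        = g₀⁻¹ * (((x : G) * y) * ((x : G) * y)) * g₀ := by group
      _ = 1 := by rw [hz2]; group
  have hg' : g₀⁻¹ ∉ Subgroup.normalizer (K : Set G) := fun hh => hg (by simpa using inv_mem hh)
  have h4 : (x : G) * y = 1 := D.ti g₀⁻¹ hg' _ (K.mul_mem hxK hyK) h3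
  apply Subtype.ext
  calc (x : G) = (x : G)⁻¹ := hxi.symm
    _ = y := inv_eq_of_mul_eq_one_right h4

end G

end Cfsg.Agent.Lib.Helper12.FA
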